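import Cfsg.Agent.H648.DG.CohPsl2
import Cfsg.Agent.H440.TwoGen.Psl
import Cfsg.Agent.H490.Der2

/-!
# Task 3326: `CohAt` for `PSL_n(q)`, `n ≥ 3`, in the defining characteristic (helper648, for S4180)
-/

set_option autoImplicit false

namespace Cfsg.Agent.H648.DG

open Cfsg.Agent.H891.DG Cfsg.Agent.H891.DG.Tools Subgroup Matrix Cfsg.Agent.S2402
  Cfsg.Agent.H490.Der

universe u

/-- generation of a quotient by the centre -/
theorem closure_image_eq_top {G T : Type*} [Group G] [Group T] (φ : G →* T) (hs : Function.Surjective φ)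
    (hk : Subgroup.center G ≤ φ.ker) {S : Set G} (h : closure S ⊔ Subgroup.center G = ⊤) : closure (φ '' S) = ⊤ := by
  rw [← MonoidHom.map_closure, eq_top_iff, ← Subgroup.map_top_of_surjective φ hs, ← h, Subgroup.map_sup, sup_le_iff]
  refine ⟨le_rfl, ?_⟩
  rintro _ ⟨x, hx, rfl⟩
  rw [MonoidHom.mem_ker.1 (hk hx)]
  exact one_mem _

namespace PslN

variable {K : Type*} [Field K] {n : ℕ}

theorem tv_mem_center {i j : Fin (n + 1)} (hij : i ≠ j) {s : K}
    (h : Matrix.SpecialLinearGroup.transvection hij s ∈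
      Subgroup.center (Matrix.SpecialLinearGroup (Fin (n + 1)) K)) : s = 0 := by
  rw [Matrix.SpecialLinearGroup.mem_center_iff] at h
  obtain ⟨r, -, hr⟩ := h
  have h1 := congrFun (congrFun hr i) j
  rw [Cfsg.Agent.H135.SLCyc.coe_tv, Matrix.scalar_apply, Matrix.diagonal_apply_ne _ hij, Matrix.add_apply,
    Matrix.one_apply_ne hij, Matrix.single_apply_same, zero_add] at h1
  exact h1.symm

/-- the diagonal subgroup -/
def D (K : Type*) [Field K] (n : ℕ) : Subgroup (Matrix.SpecialLinearGroup (Fin (n + 1)) K) where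
  carrier := {g | ∃ c : Fin (n + 1) → K, (g : Matrix (Fin (n + 1)) (Fin (n + 1)) K) = Matrix.diagonal c ∧
    ∀ a, c a ≠ 0}
  mul_mem' := by
    rintro a b ⟨c, hc, hc0⟩ ⟨c', hc', hc0'⟩
    refine ⟨fun i => c i * c' i, ?_, fun i => mul_ne_zero (hc0 i) (hc0' i)⟩
    rw [Matrix.SpecialLinearGroup.coe_mul, hc, hc', Matrix.diagonal_mul_diagonal]
  one_mem' := ⟨fun _ => 1, by rw [Matrix.SpecialLinearGroup.coe_one]; exact Matrix.diagonal_one.symm,
    fun _ => one_ne_zero⟩
  inv_mem' := by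
    rintro a ⟨c, hc, hc0⟩
    refine ⟨fun i => (c i)⁻¹, ?_, fun i => inv_ne_zero (hc0 i)⟩
    have h1 : Matrix.diagonal (fun i => (c i)⁻¹) * (a : Matrix (Fin (n + 1)) (Fin (n + 1)) K) = 1 := by
      rw [hc, Matrix.diagonal_mul_diagonal]
      rw [← Matrix.diagonal_one]
      congr 1
      funext i
      exact inv_mul_cancel₀ (hc0 i)
    have h2 : (a : Matrix (Fin (n + 1)) (Fin (n + 1)) K) *
        ((a⁻¹ : Matrix.SpecialLinearGroup (Fin (n + 1)) K) : Matrix (Fin (n + 1)) (Fin (n + 1)) K) = 1 := by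
      rw [← Matrix.SpecialLinearGroup.coe_mul, mul_inv_cancel, Matrix.SpecialLinearGroup.coe_one]
    calc ((a⁻¹ : Matrix.SpecialLinearGroup (Fin (n + 1)) K) : Matrix (Fin (n + 1)) (Fin (n + 1)) K)
        = (Matrix.diagonal (fun i => (c i)⁻¹) * (a : Matrix (Fin (n + 1)) (Fin (n + 1)) K)) *
          ((a⁻¹ : Matrix.SpecialLinearGroup (Fin (n + 1)) K) : Matrix (Fin (n + 1)) (Fin (n + 1)) K) := by
          rw [h1, Matrix.one_mul]
      _ = _ := by rw [Matrix.mul_assoc, h2, Matrix.mul_one]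

theorem D_pow [Fintype K] {g : Matrix.SpecialLinearGroup (Fin (n + 1)) K} (hg : g ∈ D K n) :
    g ^ (Fintype.card K - 1) = 1 := by
  obtain ⟨c, hc, hc0⟩ := hg
  apply Subtype.ext
  rw [Matrix.SpecialLinearGroup.coe_pow, hc, Matrix.diagonal_pow, Matrix.SpecialLinearGroup.coe_one,
    ← Matrix.diagonal_one]
  congr 1
  funext i
  rw [Pi.pow_apply]
  exact FiniteField.pow_card_sub_one_eq_one (c i) (hc0 i)

/-- the torus has order prime to the characteristic -/
theorem not_dvd_card_map [Fintype K] {p : ℕ} (hp : p.Prime) [CharP K p] {T : Type*} [Group T] [Finite T]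
    (φ : Matrix.SpecialLinearGroup (Fin (n + 1)) K →* T) : ¬ p ∣ Nat.card ((D K n).map φ) := by
  intro h
  have : Fact p.Prime := ⟨hp⟩
  obtain ⟨⟨y, g, hg, hgy⟩, hy⟩ := exists_prime_orderOf_dvd_card' p h
  have h1 : (⟨y, g, hg, hgy⟩ : (D K n).map φ) ^ (Fintype.card K - 1) = 1 := by
    apply Subtype.ext
    show y ^ (Fintype.card K - 1) = 1
    rw [← hgy, ← map_pow, D_pow hg, map_one]
  have h2 := orderOf_dvd_of_pow_eq_one h1
  rw [hy] at h2
  have h3 : p ∣ Fintype.card K := by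
    obtain ⟨k, hp', hk⟩ := FiniteField.card K p
    rw [hk]
    exact dvd_pow_self _ k.2.ne'
  have hq : 1 < Fintype.card K := Fintype.one_lt_card
  have h4 := (Nat.dvd_sub_iff_right hq.le h3).1 h2
  exact hp.one_lt.ne' (Nat.dvd_one.1 h4)

/-- the cycle normalises the torus -/
theorem conj_w (w : Matrix.SpecialLinearGroup (Fin (n + 1)) K)
    (hw : (w : Matrix (Fin (n + 1)) (Fin (n + 1)) K) =
      Matrix.of (fun i j => if j.val = i.val + 1 then 1 else if i.val = n ∧ j.val = 0 then (-1) ^ n else 0))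
    {g : Matrix.SpecialLinearGroup (Fin (n + 1)) K} (hg : g ∈ D K n) : w⁻¹ * g * w ∈ D K n := by
  obtain ⟨c, hc, hc0⟩ := hg
  refine ⟨fun b => c ((Equiv.subRight (1 : Fin (n + 1))) b), ?_, fun b => hc0 _⟩
  have h1 : (w : Matrix (Fin (n + 1)) (Fin (n + 1)) K) *
      Matrix.diagonal (fun b => c ((Equiv.subRight (1 : Fin (n + 1))) b)) =
      (g : Matrix (Fin (n + 1)) (Fin (n + 1)) K) * (w : Matrix (Fin (n + 1)) (Fin (n + 1)) K) := by
    ext a b
    rw [hc, Matrix.diagonal_mul, Matrix.mul_diagonal, Cfsg.Agent.H135.SLCyc.w_apply w hw a b]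
    by_cases hab : a = (Equiv.subRight (1 : Fin (n + 1))) b
    · rw [if_pos hab, hab, mul_comm]
    · rw [if_neg hab, mul_zero, zero_mul]
  rw [mul_assoc, Matrix.SpecialLinearGroup.coe_mul, Matrix.SpecialLinearGroup.coe_mul, ← h1, ← Matrix.mul_assoc,
    ← Matrix.SpecialLinearGroup.coe_mul, inv_mul_cancel, Matrix.SpecialLinearGroup.coe_one, Matrix.one_mul]

theorem det_d0 (hn : 2 ≤ n) : (Matrix.diagonal (fun i : Fin (n + 1) =>
    if i.val = 0 then (-1 : K) else if i.val = 1 then -1 else 1)).det = 1 := by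
  obtain ⟨m, rfl⟩ : ∃ m, n = m + 1 := ⟨n - 1, by omega⟩
  rw [Matrix.det_diagonal, Fin.prod_univ_succ, Fin.prod_univ_succ]
  rw [Finset.prod_eq_one]
  · simp
  · intro i _
    rw [if_neg (by simp), if_neg (by simp)]

/-- **`q` odd** -/
theorem cohAt_odd [Fintype K] (hn : 2 ≤ n) {p : ℕ} (hp : p.Prime) [CharP K p] (hp2 : p ≠ 2) {T : Type u} [Group T]
    [Finite T] [IsSimpleGroup T] (φ : Matrix.SpecialLinearGroup (Fin (n + 1)) K →* T)
    (hs : Function.Surjective φ) (hk : φ.ker = Subgroup.center _) : CohAt p T := by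
  have h20 : (2 : K) ≠ 0 := by
    intro h
    have h1 : ((2 : ℕ) : K) = 0 := by exact_mod_cast h
    rw [CharP.cast_eq_zero_iff K p] at h1
    exact hp2 ((Nat.prime_dvd_prime_iff_eq hp Nat.prime_two).1 h1)
  have h01 : (0 : Fin (n + 1)) ≠ 1 := by
    obtain ⟨m, rfl⟩ : ∃ m, n = m + 1 := ⟨n - 1, by omega⟩
    exact Fin.zero_ne_one
  obtain ⟨w, hw⟩ : ∃ w : Matrix.SpecialLinearGroup (Fin (n + 1)) K,
      (w : Matrix (Fin (n + 1)) (Fin (n + 1)) K) = Cfsg.Agent.H440.TwoGen.Psl.W K n :=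
    ⟨⟨_, Cfsg.Agent.H440.TwoGen.Psl.det_W⟩, rfl⟩
  set x : Matrix.SpecialLinearGroup (Fin (n + 1)) K := Matrix.SpecialLinearGroup.transvection h01 1 with hxdef
  have hx : (x : Matrix (Fin (n + 1)) (Fin (n + 1)) K) = Matrix.transvection (0 : Fin (n + 1)) (1 : Fin (n + 1)) 1 :=
    rfl
  -- the element `diag (-1, -1, 1, …)`
  set c : Fin (n + 1) → K := fun i => if i.val = 0 then (-1 : K) else if i.val = 1 then -1 else 1 with hcdef
  have hcne : ∀ a, c a ≠ 0 := by
    intro a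
    simp only [hcdef]
    split_ifs
    · exact neg_ne_zero.2 one_ne_zero
    · exact neg_ne_zero.2 one_ne_zero
    · exact one_ne_zero
  let d : Matrix.SpecialLinearGroup (Fin (n + 1)) K := ⟨Matrix.diagonal c, det_d0 hn⟩
  have hd : (d : Matrix (Fin (n + 1)) (Fin (n + 1)) K) = Matrix.diagonal c := rfl
  have hdD : d ∈ D K n := ⟨c, hd, hcne⟩
  have hdx : d * x = x * d := by
    have h1 := conj_diag d c hd hcne h01 (1 : K)
    have h2 : c 0 * 1 * (c 1)⁻¹ = 1 := by
      have e0 : c 0 = -1 := by simp [hcdef]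
      have e1 : c 1 = -1 := by
        have : ((1 : Fin (n + 1)) : ℕ) = 1 := by
          rw [Fin.val_one', Nat.mod_eq_of_lt (by omega)]
        simp only [hcdef, this]
        norm_num
      rw [e0, e1]
      norm_num
    rw [h2] at h1
    exact mul_inv_eq_iff_eq_mul.1 h1
  have hd1 : φ d ≠ 1 := by
    intro h
    have h1 : d ∈ Subgroup.center (Matrix.SpecialLinearGroup (Fin (n + 1)) K) := by
      rw [← hk]; exact h
    rw [Matrix.SpecialLinearGroup.mem_center_iff] at h1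
    obtain ⟨r, -, hr⟩ := h1
    rw [hd] at hr
    have h2 : ∀ i, r = c i := by
      intro i
      have := congrFun (congrFun hr i) i
      rwa [Matrix.scalar_apply, Matrix.diagonal_apply_eq, Matrix.diagonal_apply_eq] at this
    have h3 : c 0 = -1 := by simp [hcdef]
    have h4 : c ⟨2, by omega⟩ = 1 := by simp [hcdef]
    have h5 : (-1 : K) = 1 := by rw [← h3, ← h2, h2 ⟨2, by omega⟩, h4]
    apply h20
    linear_combination -h5
  have hgen : (D K n).map φ ⊔ closure {φ x, φ w} = ⊤ := by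
    rcases Nat.lt_or_ge 3 (Fintype.card K) with hK | hK
    · obtain ⟨k, hk'⟩ := IsCyclic.exists_generator (α := Kˣ)
      let h : Matrix.SpecialLinearGroup (Fin (n + 1)) K := ⟨Matrix.diagonal (fun i : Fin (n + 1) =>
        if i.val = 0 then (k : K) else if i.val = 1 then ((k⁻¹ : Kˣ) : K) else 1),
        Cfsg.Agent.H440.TwoGen.Psl.det_h (by omega) k⟩
      have hh : h ∈ D K n := by
        refine ⟨_, rfl, ?_⟩
        intro a
        split_ifs
        · exact k.ne_zero
        · exact (k⁻¹).ne_zero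
        · exact one_ne_zero
      have h1 := closure_image_eq_top φ hs hk.ge
        (Cfsg.Agent.S2402.result hK n (by omega) k hk' h x w rfl hx hw)
      rw [eq_top_iff, ← h1, closure_le]
      rintro _ ⟨y, rfl | hy, rfl⟩
      · exact mem_sup_left ⟨_, hh, rfl⟩
      · rw [Set.mem_singleton_iff] at hy
        subst hy
        rw [map_mul]
        exact mem_sup_right (mul_mem (subset_closure (Set.mem_insert _ _))
          (subset_closure (Set.mem_insert_of_mem _ rfl)))
    · have h1 := closure_image_eq_top φ hs hk.ge (Cfsg.Agent.S2403.result hK n (by omega) x w hx hw)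
      rw [Set.image_pair] at h1
      rw [h1]
      exact sup_top_eq _
  refine cohAt_of_torus hp (H := (D K n).map φ) (H₁ := zpowers (φ d)) (n := φ w) (u := φ x)
    (not_dvd_card_map hp φ) ?_ ?_ ?_ ?_ hgen
  · rintro _ ⟨g, hg, rfl⟩
    refine ⟨w⁻¹ * g * w, conj_w w hw hg, ?_⟩
    rw [map_mul, map_mul, map_inv]
  · rw [zpowers_le]
    exact ⟨d, hdD, rfl⟩
  · rw [Ne, zpowers_eq_bot]
    exact hd1
  · intro y hy
    obtain ⟨i, rfl⟩ := mem_zpowers_iff.1 hy
    have h1 : Commute (φ d) (φ x) := by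
      show φ d * φ x = φ x * φ d
      rw [← map_mul, hdx, map_mul]
    exact (h1.zpow_left i).eq

/-- **`q = 2`** -/
theorem invGen_two [Fintype K] (hn : 1 ≤ n) (hK : Fintype.card K = 2) {T : Type u} [Group T]
    (φ : Matrix.SpecialLinearGroup (Fin (n + 1)) K →* T)
    (hs : Function.Surjective φ) (hk : φ.ker = Subgroup.center _) : InvGen T := by
  have h20 : (1 : K) + 1 = 0 := by
    have h1 : ((Fintype.card K : ℕ) : K) = 0 := FiniteField.cast_card_eq_zero K
    rw [hK] at h1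
    rw [one_add_one_eq_two]
    exact_mod_cast h1
  have h01 : (0 : Fin (n + 1)) ≠ 1 := by
    obtain ⟨m, rfl⟩ : ∃ m, n = m + 1 := ⟨n - 1, by omega⟩
    exact Fin.zero_ne_one
  obtain ⟨w, hw⟩ : ∃ w : Matrix.SpecialLinearGroup (Fin (n + 1)) K,
      (w : Matrix (Fin (n + 1)) (Fin (n + 1)) K) = Cfsg.Agent.H440.TwoGen.Psl.W K n :=
    ⟨⟨_, Cfsg.Agent.H440.TwoGen.Psl.det_W⟩, rfl⟩
  have h1 := closure_image_eq_top φ hs hk.ge (Cfsg.Agent.S2403.result (by omega) n hn
    (Matrix.SpecialLinearGroup.transvection h01 1) w rfl hw)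
  rw [Set.image_pair] at h1
  refine ⟨_, _, ?_, ?_, h1⟩
  · rw [← map_pow, pow_two, tv_mul_same, h20, tv_zero, map_one]
  · intro h
    have h2 := tv_mem_center h01 (by rw [← hk]; exact h)
    exact one_ne_zero h2

/-- **`q ≥ 4` even** -/
theorem cohAt_two [Fintype K] (hn : 2 ≤ n) (hK : 3 < Fintype.card K) [CharP K 2] {T : Type u} [Group T]
    [Finite T] [IsSimpleGroup T] (φ : Matrix.SpecialLinearGroup (Fin (n + 1)) K →* T)
    (hs : Function.Surjective φ) (hk : φ.ker = Subgroup.center _) : CohAt 2 T := by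
  classical
  obtain ⟨m, rfl⟩ : ∃ m, n = m + 1 := ⟨n - 1, by omega⟩
  have h01 : (0 : Fin (m + 1 + 1)) ≠ 1 := Fin.zero_ne_one
  obtain ⟨w, hw⟩ : ∃ w : Matrix.SpecialLinearGroup (Fin (m + 1 + 1)) K,
      (w : Matrix (Fin (m + 1 + 1)) (Fin (m + 1 + 1)) K) = Cfsg.Agent.H440.TwoGen.Psl.W K (m + 1) :=
    ⟨⟨_, Cfsg.Agent.H440.TwoGen.Psl.det_W⟩, rfl⟩
  obtain ⟨k, hk'⟩ := IsCyclic.exists_generator (α := Kˣ)
  set c : Fin (m + 1 + 1) → K := fun i => if i.val = 0 then (k : K) else if i.val = 1 then ((k⁻¹ : Kˣ) : K) else 1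
    with hcdef
  have hc0 : c 0 = k := by simp [hcdef]
  have hc1 : c 1 = ((k⁻¹ : Kˣ) : K) := by simp [hcdef]
  have hc2 : c (1 + 1) = 1 := by
    have h2 : ((1 + 1 : Fin (m + 1 + 1)) : ℕ) = 2 := by
      rw [Fin.val_add, Fin.val_one]
      exact Nat.mod_eq_of_lt (by omega)
    simp only [hcdef, h2]
    norm_num
  have hcne : ∀ a, c a ≠ 0 := by
    intro a
    simp only [hcdef]
    split_ifs
    · exact k.ne_zero
    · exact (k⁻¹).ne_zero
    · exact one_ne_zero
  let h : Matrix.SpecialLinearGroup (Fin (m + 1 + 1)) K := ⟨Matrix.diagonal c,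
    Cfsg.Agent.H440.TwoGen.Psl.det_h (by omega) k⟩
  have hh : (h : Matrix (Fin (m + 1 + 1)) (Fin (m + 1 + 1)) K) = Matrix.diagonal c := rfl
  set x : Matrix.SpecialLinearGroup (Fin (m + 1 + 1)) K := Matrix.SpecialLinearGroup.transvection h01 1 with hxdef
  have hord : orderOf k = Fintype.card K - 1 := by
    rw [← Nat.card_zpowers, (Subgroup.eq_top_iff' _).2 hk', Subgroup.card_top, Nat.card_eq_fintype_card,
      Fintype.card_units]
  have hk1 : k ≠ 1 := by
    intro e
    rw [← orderOf_eq_one_iff] at e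
    omega
  have hk2 : k ^ 2 ≠ 1 := by
    intro e
    have := orderOf_le_of_pow_eq_one (by norm_num) e
    omega
  have hk1' : (k : K) ≠ 1 := fun e => hk1 (Units.ext e)
  have hk2' : (k : K) ^ 2 ≠ 1 := fun e => hk2 (Units.ext (by push_cast; exact e))
  set h' := w * h * w⁻¹ with hh'def
  have hh' : (h' : Matrix (Fin (m + 1 + 1)) (Fin (m + 1 + 1)) K) = Matrix.diagonal (fun i => c (i + 1)) := by
    have h1 : Matrix.diagonal (fun i => c (i + 1)) * (w : Matrix (Fin (m + 1 + 1)) (Fin (m + 1 + 1)) K) =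
        (w : Matrix (Fin (m + 1 + 1)) (Fin (m + 1 + 1)) K) * (h : Matrix (Fin (m + 1 + 1)) (Fin (m + 1 + 1)) K) := by
      ext a b
      rw [hh, Matrix.diagonal_mul, Matrix.mul_diagonal, Cfsg.Agent.H135.SLCyc.w_apply w hw a b]
      by_cases hab : a = (Equiv.subRight (1 : Fin (m + 1 + 1))) b
      · rw [if_pos hab]
        have : a + 1 = b := by rw [hab, Equiv.subRight_apply, sub_add_cancel]
        rw [this, mul_comm]
      · rw [if_neg hab, mul_zero, zero_mul]
    have h2 : (h' : Matrix (Fin (m + 1 + 1)) (Fin (m + 1 + 1)) K) =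
        (w : Matrix (Fin (m + 1 + 1)) (Fin (m + 1 + 1)) K) * (h : Matrix (Fin (m + 1 + 1)) (Fin (m + 1 + 1)) K) *
          ((w⁻¹ : Matrix.SpecialLinearGroup (Fin (m + 1 + 1)) K) : Matrix (Fin (m + 1 + 1)) (Fin (m + 1 + 1)) K) := by
      rw [hh'def, Matrix.SpecialLinearGroup.coe_mul, Matrix.SpecialLinearGroup.coe_mul]
    rw [h2, ← h1, Matrix.mul_assoc, ← Matrix.SpecialLinearGroup.coe_mul, mul_inv_cancel,
      Matrix.SpecialLinearGroup.coe_one, Matrix.mul_one]
  have hconj' := fun (s : K) => conj_diag h' _ hh' (fun a => hcne (a + 1)) h01 s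
  have hconj : ∀ s : K, h * Matrix.SpecialLinearGroup.transvection h01 s * h⁻¹ =
      Matrix.SpecialLinearGroup.transvection h01 ((k : K) ^ 2 * s) := by
    intro s
    rw [conj_diag h _ hh hcne h01 s, hc0, hc1]
    congr 1
    rw [Units.val_inv_eq_inv_val, inv_inv]
    ring
  have hcomm : h * h' = h' * h := diag_comm h h' _ _ hh hh'
  -- the commutator
  have htv : h * (x * w * h * (x * w)⁻¹) * h⁻¹ * (x * w * h * (x * w)⁻¹)⁻¹ =
      Matrix.SpecialLinearGroup.transvection h01 (((k : K) ^ 2 - 1) * (1 - ((k⁻¹ : Kˣ) : K))) := by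
    have e1 : x * w * h * (x * w)⁻¹ = x * h' * x⁻¹ := by rw [hh'def]; group
    have e2 : h * (x * h' * x⁻¹) * h⁻¹ * (x * h' * x⁻¹)⁻¹ =
        (h * x * h⁻¹) * ((h * h' * h⁻¹) * ((h * x * h⁻¹)⁻¹ * x) * h'⁻¹) * x⁻¹ := by group
    have e3 : h * h' * h⁻¹ = h' := by rw [hcomm, mul_inv_cancel_right]
    have einv : ∀ s : K, (Matrix.SpecialLinearGroup.transvection h01 s)⁻¹ =
        Matrix.SpecialLinearGroup.transvection h01 (-s) := by
      intro s
      rw [inv_eq_iff_mul_eq_one, tv_mul_same, add_neg_cancel, tv_zero]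
    rw [e1, e2, e3, hxdef, hconj, einv, tv_mul_same, hconj', tv_mul_same, einv, tv_mul_same]
    congr 1
    rw [zero_add, hc1, hc2]
    ring
  have hcoef : ((k : K) ^ 2 - 1) * (1 - ((k⁻¹ : Kˣ) : K)) ≠ 0 := by
    refine mul_ne_zero (sub_ne_zero.2 hk2') (sub_ne_zero.2 ?_)
    intro e
    apply hk1'
    have h1 : ((k⁻¹ : Kˣ) : K) * k = 1 := by rw [← Units.val_mul, inv_mul_cancel, Units.val_one]
    rwa [← e, one_mul] at h1
  have hgen := closure_image_eq_top φ hs hk.ge (Cfsg.Agent.S2402.result hK (m + 1) (by omega) k hk' h x w rfl rfl hw)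
  rw [Set.image_pair] at hgen
  intro V _ _ _ hV hirr hne
  set X := Matrix.SpecialLinearGroup.transvection h01 (((k : K) ^ 2 - 1) * (1 - ((k⁻¹ : Kˣ) : K))) with hX
  have hX1 : φ X ≠ 1 := fun e => hcoef (tv_mem_center h01 (by rw [← hk]; exact e))
  obtain ⟨v, hv⟩ := faithful hne hX1
  have hφ : φ h * (φ (x * w) * φ h * (φ (x * w))⁻¹) * (φ h)⁻¹ * (φ (x * w) * φ h * (φ (x * w))⁻¹)⁻¹ = φ X := by
    rw [← htv]
    simp only [map_mul, map_inv]
  refine small_of_steinberg_two hV hgen (n := Fintype.card K - 1) ?_ ?_ ?_ (w := v) ?_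
  · rw [← map_pow, D_pow ⟨c, hh, hcne⟩, map_one]
  · have h1 : 2 ∣ Fintype.card K := by
      obtain ⟨j, -, hj⟩ := FiniteField.card K 2
      rw [hj]
      exact dvd_pow_self _ j.2.ne'
    obtain ⟨r, hr⟩ := h1
    exact ⟨r - 1, by omega⟩
  · rw [hφ, ← map_pow, hX, pow_two, tv_mul_same, CharTwo.add_self_eq_zero, tv_zero, map_one]
  · rw [hφ]
    exact hv

/-- **`PSL_n(q)`, `n ≥ 3`, defining characteristic**, for a surjection with central kernel -/
theorem cohAt_sl [Fintype K] (hn : 2 ≤ n) {p : ℕ} (hp : p.Prime) [CharP K p] {T : Type u} [Group T]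
    [Finite T] [IsSimpleGroup T] (hna : ¬ IsMulCommutative T) (φ : Matrix.SpecialLinearGroup (Fin (n + 1)) K →* T)
    (hs : Function.Surjective φ) (hk : φ.ker = Subgroup.center _) : CohAt p T := by
  by_cases hp2 : p = 2
  · subst hp2
    rcases Nat.lt_or_ge 3 (Fintype.card K) with hK | hK
    · exact cohAt_two hn hK φ hs hk
    · have h2 : Fintype.card K = 2 := by
        obtain ⟨j, -, hj⟩ := FiniteField.card K 2
        have h1 : 2 ∣ Fintype.card K := by
          rw [hj]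
          exact dvd_pow_self _ j.2.ne'
        have hq : 1 < Fintype.card K := Fintype.one_lt_card
        omega
      exact (invGen_two (by omega) h2 φ hs hk).coh hna 2 hp
  · exact cohAt_odd hn hp hp2 φ hs hk

end PslN

/-- **Task 3326.** -/
theorem cohAt_psl {T : Type u} [Group T] [Finite T] [IsSimpleGroup T] (hna : ¬ IsMulCommutative T)
    (F : Type*) [Field F] [Fintype F] (n : ℕ) (hn : 3 ≤ n) {p : ℕ} (hp : p.Prime) [CharP F p]
    (e : Nonempty (T ≃* Matrix.ProjectiveSpecialLinearGroup (Fin n) F)) : CohAt p T := by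
  obtain ⟨e⟩ := e
  obtain ⟨m, rfl⟩ : ∃ m, n = m + 1 := ⟨n - 1, by omega⟩
  refine PslN.cohAt_sl (K := F) (n := m) (by omega) hp hna
    (e.symm.toMonoidHom.comp (QuotientGroup.mk' (Subgroup.center (Matrix.SpecialLinearGroup (Fin (m + 1)) F)))) ?_ ?_
  · exact e.symm.surjective.comp (QuotientGroup.mk'_surjective _)
  · ext g
    rw [MonoidHom.mem_ker, MonoidHom.comp_apply]
    have h1 : e.symm.toMonoidHom (QuotientGroup.mk' (Subgroup.center (Matrix.SpecialLinearGroup (Fin (m + 1)) F)) g) =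
        1 ↔ QuotientGroup.mk' (Subgroup.center (Matrix.SpecialLinearGroup (Fin (m + 1)) F)) g = 1 :=
      map_eq_one_iff e.symm e.symm.injective
    rw [h1]
    exact QuotientGroup.eq_one_iff g

end Cfsg.Agent.H648.DG
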