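import Cfsg.Agent.H648.DG.Psl2Inv
import Cfsg.Agent.H891.DG.Tools
import Cfsg.Agent.H440.TwoGen.Alt
import Cfsg.Agent.QTKE.Iso

/-!
# Task 3320: `Coh` for `PSL_2(q)` (helper648, for S4180)
-/

set_option autoImplicit false

namespace Cfsg.Agent.H648.DG

open Cfsg.Agent.H891.DG Cfsg.Agent.H891.DG.Tools Equiv Subgroup

universe u

/-- `T` is generated by an involution and another element. -/
def InvGen (T : Type*) [Group T] : Prop :=
  ∃ c b : T, c ^ 2 = 1 ∧ c ≠ 1 ∧ closure ({c, b} : Set T) = ⊤

theorem InvGen.congr {T T' : Type*} [Group T] [Group T'] (e : T ≃* T') (h : InvGen T) : InvGen T' := by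
  obtain ⟨c, b, hc, hc1, hcb⟩ := h
  refine ⟨e c, e b, ?_, ?_, ?_⟩
  · rw [← map_pow, hc, map_one]
  · intro h
    exact hc1 ((map_eq_one_iff e e.injective).1 h)
  · have h1 : e.toMonoidHom '' {c, b} = {e c, e b} := Set.image_pair e.toMonoidHom c b
    rw [← h1, ← MonoidHom.map_closure, hcb]
    exact Subgroup.map_top_of_surjective _ e.surjective

theorem InvGen.coh {T : Type u} [Group T] [Finite T] [IsSimpleGroup T] (hna : ¬ IsMulCommutative T)
    (h : InvGen T) : Coh T := by
  obtain ⟨c, b, hc, hc1, hcb⟩ := h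
  exact coh_of_involution hna hc hc1 hcb

/-- `A_6` -/
theorem invGen_alt6 : InvGen (alternatingGroup (Fin 6)) := by
  have ht : swap (0 : Fin 6) 3 * swap 1 4 ∈ alternatingGroup (Fin 6) := by
    rw [Equiv.Perm.mem_alternatingGroup]; decide
  have hb : swap (0 : Fin 6) 1 * finRotate 6 ∈ alternatingGroup (Fin 6) := by
    rw [Equiv.Perm.mem_alternatingGroup]; decide
  refine ⟨⟨_, ht⟩, ⟨_, hb⟩, ?_, ?_, ?_⟩
  · apply Subtype.ext
    show (swap (0 : Fin 6) 3 * swap 1 4) ^ 2 = 1
    decide
  · intro h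
    have h1 : swap (0 : Fin 6) 3 * swap 1 4 = 1 := congrArg Subtype.val h
    revert h1
    decide
  apply Subgroup.map_injective (alternatingGroup (Fin 6)).subtype_injective
  rw [MonoidHom.map_closure]
  have h1 : (alternatingGroup (Fin 6)).subtype '' {⟨_, ht⟩, ⟨_, hb⟩} =
      {swap (0 : Fin 6) 3 * swap 1 4, swap (0 : Fin 6) 1 * finRotate 6} := by
    rw [Set.image_pair]; rfl
  rw [h1, ← MonoidHom.range_eq_map, Subgroup.range_subtype]
  apply le_antisymm
  · rw [Subgroup.closure_le]
    rintro x (rfl | rfl)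
    · exact ht
    · exact hb
  · have mt := Subgroup.subset_closure (k := {swap (0 : Fin 6) 3 * swap 1 4, swap (0 : Fin 6) 1 * finRotate 6})
      (Set.mem_insert _ _)
    have mb := Subgroup.subset_closure (k := {swap (0 : Fin 6) 3 * swap 1 4, swap (0 : Fin 6) 1 * finRotate 6})
      (Set.mem_insert_of_mem _ rfl)
    refine Cfsg.Agent.H440.TwoGen.Alt.even_case (n := 6) (by norm_num) _ (swap (0 : Fin 6) 1 * finRotate 6) ?_ ?_ mb ?_
    · decide
    · intro i h hi
      have h5 : i < 5 := by omega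
      interval_cases i <;> decide +revert
    · have h2 := mul_mem (mul_mem (mul_mem (mul_mem (mul_mem (mul_mem mt (inv_mem mb)) (inv_mem mb)) mt) mb) mt)
        (inv_mem mb)
      convert h2 using 1
      rw [Cfsg.Agent.CharactersDeep.SchurAltPerm.x_def]
      decide

/-- **`PSL_2(q)`, `q ≥ 4`, is generated by an involution and another element.** -/
theorem invGen_psl2 {T : Type*} [Group T] [Finite T] [IsSimpleGroup T] (F : Type) [Field F] [Fintype F]
    (h4 : 4 ≤ Fintype.card F) (e : T ≃* Matrix.ProjectiveSpecialLinearGroup (Fin 2) F)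
    (hna : ¬ IsMulCommutative T) : InvGen T := by
  by_cases h9 : Fintype.card F = 9
  · obtain ⟨e2⟩ := Cfsg.Agent.QTKE.Iso.psl29 F h9
    exact invGen_alt6.congr (e.trans e2).symm
  · have hs : IsSimpleGroup (Matrix.ProjectiveSpecialLinearGroup (Fin 2) F) := e.symm.isSimpleGroup
    have hna' : ¬ IsMulCommutative (Matrix.ProjectiveSpecialLinearGroup (Fin 2) F) := by
      intro h
      apply hna
      refine ⟨⟨fun a b => ?_⟩⟩
      apply e.injective
      rw [map_mul, map_mul]
      exact h.is_comm.comm _ _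
    exact InvGen.congr e.symm (Psl2.exists_inv F hna' h4 h9)

/-- **Task 3320.** -/
theorem coh_psl2 {T : Type u} [Group T] [Finite T] [IsSimpleGroup T] (F : Type) [Field F] [Fintype F]
    (h4 : 4 ≤ Fintype.card F) (e : Nonempty (T ≃* Matrix.ProjectiveSpecialLinearGroup (Fin 2) F)) : Coh T := by
  obtain ⟨e⟩ := e
  have hna : ¬ IsMulCommutative T := by
    intro h
    have : Group.IsSolvable T := Group.isSolvable_of_comm fun a b => h.is_comm.comm a b
    exact ClassicalGeometry.PSL2Solvable.not_isSolvable_psl F h4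
      (Group.isSolvable_of_surjective (f := e.toMonoidHom) e.surjective)
  exact (invGen_psl2 F h4 e hna).coh hna

end Cfsg.Agent.H648.DG
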